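import Cfsg.Agent.H902.EP.SpEven
import Cfsg.Agent.Characters.ClassMul

/-!
# `Sp_{2n}(2)`, `p = 3`

The class sum of the transvections on an irreducible character without vectors fixed by `Sp_2(2)`.
-/

set_option autoImplicit false
set_option linter.unusedSectionVars false

open Cfsg Cfsg.Agent.Characters.Core Cfsg.Agent.H892.EP Cfsg.Agent.H352.EP
open Matrix Module

namespace Cfsg.Agent.H902.EP

variable {n : ℕ}

/-! ### maximal isotropic subspaces -/

/-- the bilinear form -/
noncomputable def bform (n : ℕ) : LinearMap.BilinForm (ZMod 2) (Vv n) :=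
  LinearMap.mk₂ (ZMod 2) form form_add_left form_smul_left form_add_right form_smul_right

theorem bform_apply (u v : Vv n) : bform n u v = form u v := rfl

theorem bform_refl : (bform n).IsRefl := fun u v h => by
  rw [bform_apply] at h ⊢
  rw [form_comm]
  exact h

theorem bform_nondeg : (bform n).Nondegenerate := by
  refine ⟨fun u h => eq_zero_of_form u h, fun u h => eq_zero_of_form u fun v => ?_⟩
  rw [form_comm]
  exact h v

theorem finrank_Vv : finrank (ZMod 2) (Vv n) = n + n := by
  rw [Module.finrank_prod]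
  simp

/-- `Sᗮ = S` -/
theorem mem_of_perp {S : Submodule (ZMod 2) (Vv n)} (hS : IsLag S) {w : Vv n}
    (hw : ∀ s ∈ S, form s w = 0) : w ∈ S := by
  have h1 : S ≤ (bform n).orthogonal S := fun s hs t ht => hS.1 t ht s hs
  have h2 : finrank (ZMod 2) ↥((bform n).orthogonal S) = n := by
    rw [LinearMap.BilinForm.finrank_orthogonal bform_nondeg, finrank_Vv, hS.2]
    omega
  have h3 : S = (bform n).orthogonal S := by
    apply Submodule.eq_of_le_of_finrank_eq h1
    rw [h2, hS.2]
  rw [h3]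
  exact fun s hs => hw s hs

/-- `t_u t_v` fixes no maximal isotropic subspace -/
theorem no_lag {u v : Vv n} (huv : form u v = 1) (S : Lag n) : (tv u * tv v) • S ≠ S := by
  intro hS
  have hmem : ∀ s : Vv n, s ∈ S.1 → (tv u * tv v) • s ∈ S.1 := by
    intro s hs
    have h1 := (smul_mem_act (tv u * tv v) S.1 s).2 hs
    have h2 : act (tv u * tv v) S.1 = S.1 := congrArg Subtype.val hS
    rwa [h2] at h1
  have hvu : form v u = 1 := by rw [form_comm]; exact huv
  have hc : ∀ s : Vv n, (tv u * tv v) • s = s + (form s v • v + (form s u + form s v) • u) := by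
    intro s
    rw [mul_smul, tv_smul v s, tv_smul, form_add_left, form_smul_left, hvu, mul_one, add_assoc]
  have hd : ∀ s ∈ S.1, form s v • v + (form s u + form s v) • u ∈ S.1 := by
    intro s hs
    have h1 := S.1.add_mem (hmem s hs) hs
    rw [hc, add_assoc, add_comm _ s, ← add_assoc, vv_add_self, zero_add] at h1
    exact h1
  have two : ∀ c : ZMod 2, c = 0 ∨ c = 1 := by decide
  have hu_not : ¬ (u ∈ S.1 ∧ v ∈ S.1) := by
    rintro ⟨h1, h2⟩
    have := S.2.1 u h1 v h2
    rw [huv] at this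
    exact one_ne_zero this
  have e11 : (1 : ZMod 2) + 1 = 0 := by decide
  -- if one nonzero vector of `⟨u, v⟩` is in `S` then so are all
  have hu1 : u ∉ S.1 := by
    intro h
    have h1 := hd u h
    rw [huv, form_self, one_smul, zero_add, one_smul] at h1
    refine hu_not ⟨h, ?_⟩
    have h2 := S.1.add_mem h1 h
    rwa [add_assoc, vv_add_self, add_zero] at h2
  have hv1 : v ∉ S.1 := by
    intro h
    have h1 := hd v h
    rw [form_self, hvu, zero_smul, zero_add, add_zero, one_smul] at h1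
    exact hu1 h1
  have huv1 : v + u ∉ S.1 := by
    intro h
    have h1 := hd (v + u) h
    rw [form_add_left, form_add_left, form_self, form_self, hvu, huv, zero_add, add_zero, one_smul, e11,
      zero_smul, add_zero] at h1
    exact hv1 h1
  have hperp : ∀ s ∈ S.1, form s u = 0 ∧ form s v = 0 := by
    intro s hs
    have h1 := hd s hs
    rcases two (form s u) with hu | hu <;> rcases two (form s v) with hv | hv
    · exact ⟨hu, hv⟩
    · rw [hu, hv, one_smul, zero_add, one_smul] at h1
      exact absurd h1 huv1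
    · rw [hu, hv, zero_smul, zero_add, add_zero, one_smul] at h1
      exact absurd h1 hu1
    · rw [hu, hv, one_smul, e11, zero_smul, add_zero] at h1
      exact absurd h1 hv1
  exact hu1 (mem_of_perp S.2 fun s hs => (hperp s hs).1)

/-! ### the class of transvections -/

theorem tv_inj {u v : Vv n} (hu : u ≠ 0) (h : tv u = tv v) : u = v := by
  obtain ⟨w, hw, -⟩ := exists_form_one hu hu
  have h1 : tv u • w = tv v • w := by rw [h]
  rw [tv_one (by rw [form_comm]; exact hw), tv_smul] at h1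
  have h2 : u = form w v • v := add_left_cancel h1
  have two : ∀ c : ZMod 2, c = 0 ∨ c = 1 := by decide
  rcases two (form w v) with h3 | h3
  · rw [h3, zero_smul] at h2
    exact absurd h2 hu
  · rwa [h3, one_smul] at h2

open scoped Classical in
theorem filter_isConj {u : Vv n} (hu : u ≠ 0) :
    (Finset.univ.filter (IsConj (tv u))) = (Finset.univ.filter fun v : Vv n => v ≠ 0).image tv := by
  ext x
  simp only [Finset.mem_filter, Finset.mem_univ, true_and, Finset.mem_image]
  constructor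
  · intro h
    obtain ⟨c, hc⟩ := isConj_iff.1 h
    refine ⟨c • u, fun h0 => hu ?_, by rw [← hc, tv_conj]⟩
    have := congrArg (fun w => c⁻¹ • w) h0
    simp only [inv_smul_smul] at this
    rw [this]
    exact map_zero ((c⁻¹ : Sp n) : Vv n ≃ₗ[ZMod 2] Vv n)
  · rintro ⟨v, hv, rfl⟩
    obtain ⟨g, hg⟩ := exists_smul_eq hu hv
    exact isConj_iff.2 ⟨g, by rw [tv_conj, hg]⟩

open scoped Classical in
theorem card_ne_zero_vec : (Finset.univ.filter fun v : Vv n => v ≠ 0).card = 2 ^ n * 2 ^ n - 1 := by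
  have h1 : (Finset.univ.filter fun v : Vv n => v ≠ 0) = Finset.univ.erase 0 := by
    ext v
    simp
  rw [h1, Finset.card_erase_of_mem (Finset.mem_univ _), Finset.card_univ, Fintype.card_prod]
  simp [ZMod.card]

section rep
variable {V : Type*} [AddCommGroup V] [Module ℂ V] [FiniteDimensional ℂ V] (ρ : Representation ℂ (Sp n) V)

theorem card_lag (S : Lag n) : Nat.card S.1 = 2 ^ n := by
  have h := Module.natCard_eq_pow_finrank (K := ZMod 2) (V := S.1)
  rw [S.2.2] at h
  rw [h]
  simp

open scoped Classical in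
/-- the number of `w ∈ S` with `form w v = 1` -/
theorem card_half (S : Lag n) {v : Vv n} (hv : v ∉ S.1) [Fintype S.1] :
    2 * (Finset.univ.filter fun w : S.1 => form (w : Vv n) v = 1).card = 2 ^ n := by
  have two : ∀ c : ZMod 2, c = 0 ∨ c = 1 := by decide
  obtain ⟨w0, hw0⟩ : ∃ w0 : S.1, form (w0 : Vv n) v = 1 := by
    by_contra h
    push Not at h
    exact hv (mem_of_perp S.2 fun s hs => (two _).resolve_right (h ⟨s, hs⟩))
  have hself : ∀ w : S.1, w + w0 + w0 = w := fun w => Subtype.ext (by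
    show (w : Vv n) + w0 + w0 = w
    rw [add_assoc, vv_add_self, add_zero])
  have h1 : (Finset.univ.filter fun w : S.1 => form (w : Vv n) v = 1).card =
      (Finset.univ.filter fun w : S.1 => ¬ form (w : Vv n) v = 1).card := by
    refine Finset.card_bij' (fun a _ => a + w0) (fun a _ => a + w0) ?_ ?_ (fun a _ => hself a)
      (fun a _ => hself a)
    · intro a ha
      rw [Finset.mem_filter] at ha ⊢
      refine ⟨Finset.mem_univ _, ?_⟩
      rw [Submodule.coe_add, form_add_left, ha.2, hw0]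
      decide
    · intro a ha
      rw [Finset.mem_filter] at ha ⊢
      refine ⟨Finset.mem_univ _, ?_⟩
      have : form (a : Vv n) v = 0 := (two _).resolve_right ha.2
      rw [Submodule.coe_add, form_add_left, this, hw0]
      decide
  have h2 := Finset.card_filter_add_card_filter_not (s := (Finset.univ : Finset S.1))
    (fun w : S.1 => form (w : Vv n) v = 1)
  rw [Finset.card_univ] at h2
  have h3 : Fintype.card S.1 = 2 ^ n := by rw [← Nat.card_eq_fintype_card, card_lag]
  omega

open scoped Classical in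
/-- `2 ∑_v ρ(t_v) f = 2^n (3 - 2^n) f` -/
theorem sum_tv (S : Lag n) {f : V} (hf : ∀ w ∈ S.1, ρ (tv w) f = f)
    (hk : ∀ u v : Vv n, form u v = 1 → ∀ w : V, ρ (tv u) w = w → ρ (tv v) w = w → w = 0) :
    (2 : ℂ) • ∑ v : Vv n, ρ (tv v) f = ((2 : ℂ) ^ n * (3 - 2 ^ n)) • f := by
  have := Fintype.ofFinite S.1
  -- the relation
  have hrel : ∀ (a : S.1) (v : Vv n), form (a : Vv n) v = 1 →
      f + ρ (tv v) f + ρ (tv (v + a)) f = 0 := by
    intro a v huv
    have h1 := op6 ρ (tv_mul_self (a : Vv n)) (tv_mul_self v) (tv_braid huv) (hk _ _ huv)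
    have h2 := congrArg (fun T => T f) h1
    simp only [LinearMap.add_apply, Module.End.one_apply, LinearMap.zero_apply] at h2
    rw [tv_aba huv, tv_mul huv] at h2
    rw [map_mul, map_mul, Module.End.mul_apply, Module.End.mul_apply, hf _ a.2,
      add_comm (a : Vv n) v] at h2
    have h3 : (2 : ℂ) • (f + ρ (tv v) f + ρ (tv (v + a)) f) = 0 := by
      rw [two_smul]
      rw [← h2]
      abel
    exact (smul_eq_zero.1 h3).resolve_left two_ne_zero
  -- double sum
  have hsum : ∑ v : Vv n, ∑ a ∈ Finset.univ.filter (fun a : S.1 => form (a : Vv n) v = 1),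
      (f + ρ (tv v) f + ρ (tv (v + a)) f) = 0 :=
    Finset.sum_eq_zero fun v _ => Finset.sum_eq_zero fun a ha => hrel a v (Finset.mem_filter.1 ha).2
  have hswap : ∑ v : Vv n, ∑ a ∈ Finset.univ.filter (fun a : S.1 => form (a : Vv n) v = 1),
      ρ (tv (v + a)) f = ∑ v : Vv n, ∑ a ∈ Finset.univ.filter (fun a : S.1 => form (a : Vv n) v = 1),
      ρ (tv v) f := by
    simp only [Finset.sum_filter]
    rw [Finset.sum_comm]
    conv_rhs => rw [Finset.sum_comm]
    refine Finset.sum_congr rfl fun a _ => ?_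
    refine Fintype.sum_equiv (Equiv.addRight (a : Vv n)) _ _ fun v => ?_
    rw [Equiv.coe_addRight]
    have : form (a : Vv n) (v + a) = form (a : Vv n) v := by
      rw [form_add_right, form_self, add_zero]
    rw [this]
  have h1 : ∑ v : Vv n, ((Finset.univ.filter (fun a : S.1 => form (a : Vv n) v = 1)).card : ℂ) •
      (f + (2 : ℂ) • ρ (tv v) f) = 0 := by
    rw [← hsum]
    simp only [Finset.sum_add_distrib]
    rw [hswap, add_assoc, ← Finset.sum_add_distrib, ← Finset.sum_add_distrib]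
    refine Finset.sum_congr rfl fun v _ => ?_
    rw [Finset.sum_const, Finset.sum_const, ← two_smul ℂ, ← Nat.cast_smul_eq_nsmul ℂ,
      ← Nat.cast_smul_eq_nsmul ℂ, smul_add, smul_comm (2 : ℂ)]
  -- multiply by two
  have h2 : ∑ v : Vv n, (if v ∈ S.1 then (0 : V) else (2 : ℂ) ^ n • (f + (2 : ℂ) • ρ (tv v) f)) = 0 := by
    have h3 := congrArg (fun w => (2 : ℂ) • w) h1
    simp only [smul_zero] at h3
    rw [Finset.smul_sum] at h3
    refine Eq.trans (Finset.sum_congr rfl fun v _ => ?_) h3
    by_cases hv : v ∈ S.1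
    · rw [if_pos hv]
      have : (Finset.univ.filter (fun a : S.1 => form (a : Vv n) v = 1)) = ∅ := by
        rw [Finset.filter_eq_empty_iff]
        intro a _
        rw [S.2.1 _ a.2 _ hv]
        decide
      rw [this, Finset.card_empty, Nat.cast_zero, zero_smul, smul_zero]
    · rw [if_neg hv, smul_smul]
      congr 1
      exact_mod_cast (card_half S hv).symm
  have h3 : ∑ v : Vv n, (if v ∈ S.1 then (0 : V) else (f + (2 : ℂ) • ρ (tv v) f)) = 0 := by
    have h4 : (2 : ℂ) ^ n • ∑ v : Vv n, (if v ∈ S.1 then (0 : V) else (f + (2 : ℂ) • ρ (tv v) f)) = 0 := by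
      rw [Finset.smul_sum]
      refine Eq.trans (Finset.sum_congr rfl fun v _ => ?_) h2
      split_ifs
      · rw [smul_zero]
      · rfl
    exact (smul_eq_zero.1 h4).resolve_left (pow_ne_zero _ two_ne_zero)
  have h4 : ∑ v : Vv n, (f + (2 : ℂ) • ρ (tv v) f) =
      ∑ v : Vv n, (if v ∈ S.1 then (3 : ℂ) • f else 0) := by
    have h6 : ∑ v : Vv n, (f + (2 : ℂ) • ρ (tv v) f) = ∑ v : Vv n, (f + (2 : ℂ) • ρ (tv v) f) -
        ∑ v : Vv n, (if v ∈ S.1 then (0 : V) else (f + (2 : ℂ) • ρ (tv v) f)) := by rw [h3, sub_zero]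
    rw [h6, ← Finset.sum_sub_distrib]
    refine Finset.sum_congr rfl fun v _ => ?_
    by_cases hv : v ∈ S.1
    · rw [if_pos hv, if_pos hv, sub_zero, hf v hv]
      module
    · rw [if_neg hv, if_neg hv, sub_self]
  have hc1 : ∑ v : Vv n, f = ((2 : ℂ) ^ n * 2 ^ n) • f := by
    rw [Finset.sum_const, Finset.card_univ, ← Nat.cast_smul_eq_nsmul ℂ, Fintype.card_prod]
    simp [ZMod.card]
  have hc2 : ∑ v : Vv n, (if v ∈ S.1 then (3 : ℂ) • f else 0) = ((2 : ℂ) ^ n * 3) • f := by
    rw [← Finset.sum_filter, Finset.sum_const, ← Nat.cast_smul_eq_nsmul ℂ, smul_smul]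
    have h7 : (Finset.univ.filter fun v : Vv n => v ∈ S.1).card = 2 ^ n := by
      rw [← card_lag S, Nat.card_eq_fintype_card, Fintype.card_subtype]
    rw [h7]
    simp
  rw [Finset.sum_add_distrib, hc1, hc2, ← Finset.smul_sum] at h4
  have h5 : (2 : ℂ) • ∑ v : Vv n, ρ (tv v) f = ((2 : ℂ) ^ n * 3) • f - ((2 : ℂ) ^ n * 2 ^ n) • f := by
    rw [← h4]
    abel
  rw [h5, ← sub_smul]
  congr 1
  ring

end rep

open scoped Classical in
/-- the value at a transvection -/
theorem val_tv {χ : IrrCharacter (Sp n)} (hk : ∀ u v : Vv n, form u v = 1 →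
      NoFix (Subgroup.closure {tv u, tv v}) (χ : Sp n → ℂ)) {S : Lag n}
    (hS : ¬ NoFix (Subgroup.closure {x : Sp n | ∃ w ∈ S.1, x = tv w}) (χ : Sp n → ℂ)) {u : Vv n} (hu : u ≠ 0) :
    ((2 : ℂ) ^ n + 1) * 2 * (χ : Sp n → ℂ) (tv u) = -((2 : ℂ) ^ n - 2) * (χ : Sp n → ℂ) 1 := by
  obtain ⟨N, ρ, hirr, hρ⟩ := χ.2
  have hk' : ∀ u v : Vv n, form u v = 1 → ∀ w : Fin N → ℂ, ρ (tv u) w = w → ρ (tv v) w = w → w = 0 := by
    intro u v huv w h1 h2
    by_contra hw
    have h3 := (md_ne_zero_iff ρ (Subgroup.closure {tv u, tv v})).2 ⟨w, hw, fun d hd => by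
      induction hd using Subgroup.closure_induction with
      | mem x hx =>
        rcases hx with rfl | hx
        · exact h1
        · rw [Set.mem_singleton_iff.1 hx]
          exact h2
      | one => rw [map_one, Module.End.one_apply]
      | mul x y _ _ hx hy => rw [map_mul, Module.End.mul_apply, hy, hx]
      | inv x _ hx =>
        conv_lhs => rw [← hx]
        rw [← Module.End.mul_apply, ← map_mul, inv_mul_cancel, map_one, Module.End.one_apply]⟩
    rw [hρ] at h3
    exact h3 ((md_eq_zero_iff _ _).2 (hk u v huv))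
  obtain ⟨f, hf0, hf⟩ : ∃ w : Fin N → ℂ, w ≠ 0 ∧ ∀ d ∈ Subgroup.closure {x : Sp n | ∃ w ∈ S.1, x = tv w},
      ρ d w = w := by
    rw [← md_ne_zero_iff, hρ]
    exact fun h => hS ((md_eq_zero_iff _ _).1 h)
  have hsum := sum_tv ρ S (f := f) (fun w hw => hf _ (Subgroup.subset_closure ⟨w, hw, rfl⟩)) hk'
  have hcl := Cfsg.Agent.Characters.ClassMul.classSum_smul ρ hirr (tv u)
  rw [filter_isConj hu, Finset.sum_image (fun a ha b _ h => tv_inj (Finset.mem_filter.1 ha).2 h)] at hcl
  have hidx : ((Subgroup.centralizer ({tv u} : Set (Sp n))).index : ℂ) = 2 ^ n * 2 ^ n - 1 := by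
    rw [← Cfsg.Agent.Characters.ClassMul.card_filter_isConj, filter_isConj hu,
      Finset.card_image_of_injOn (fun a ha b _ h => tv_inj (Finset.mem_filter.1 ha).2 h),
      card_ne_zero_vec, Nat.cast_sub (Nat.one_le_iff_ne_zero.2 (by positivity))]
    push_cast
    ring
  rw [hidx, hρ] at hcl
  set c : ℂ := ((2 : ℂ) ^ n * 2 ^ n - 1) * (χ : Sp n → ℂ) (tv u) / (χ : Sp n → ℂ) 1 with hc
  have h1 : ∑ v : Vv n, ρ (tv v) f = (1 + c) • f := by
    have h2 : ∑ v : Vv n, ρ (tv v) f = ρ (tv (0 : Vv n)) f +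
        ∑ v ∈ Finset.univ.filter (fun v : Vv n => v ≠ 0), ρ (tv v) f := by
      rw [← Finset.add_sum_erase Finset.univ _ (Finset.mem_univ (0 : Vv n))]
      congr 1
      refine Finset.sum_congr ?_ fun _ _ => rfl
      ext v
      simp
    have h3 := congrArg (fun T => T f) hcl
    simp only [LinearMap.sum_apply, LinearMap.smul_apply, Module.End.one_apply] at h3
    rw [h2, h3, tv_zero, map_one, Module.End.one_apply, add_smul, one_smul]
  rw [h1, smul_smul] at hsum
  have h4 : (2 : ℂ) * (1 + c) = 2 ^ n * (3 - 2 ^ n) := by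
    have h5 : ((2 : ℂ) * (1 + c) - 2 ^ n * (3 - 2 ^ n)) • f = 0 := by
      rw [sub_smul, hsum, sub_self]
    exact sub_eq_zero.1 ((smul_eq_zero.1 h5).resolve_right hf0)
  have hχ1 : (χ : Sp n → ℂ) 1 ≠ 0 := isIrr_apply_one_ne_zero χ.2
  have h6 : c * (χ : Sp n → ℂ) 1 = ((2 : ℂ) ^ n * 2 ^ n - 1) * (χ : Sp n → ℂ) (tv u) := by
    rw [hc]
    field_simp
  -- `(4^n - 1) χ(t) = - (2^n - 1)(2^n - 2)/2 χ(1)`
  have hne : (2 : ℂ) ^ n - 1 ≠ 0 ∨ n = 0 := by
    by_cases h0 : n = 0
    · exact Or.inr h0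
    · left
      intro h
      have h7 : (2 : ℂ) ^ n = 1 := sub_eq_zero.1 h
      have h8 : (2 : ℕ) ^ n = 1 := by exact_mod_cast h7
      have h9 := Nat.one_lt_two_pow h0
      omega
  rcases hne with hne | h0
  · apply mul_left_cancel₀ hne
    linear_combination (-2 : ℂ) * h6 + (χ : Sp n → ℂ) 1 * h4
  · subst h0
    exact absurd (Subsingleton.elim u 0) hu

end Cfsg.Agent.H902.EP
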